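/-
Sylow 2-subgroups of `SL_2` over a field of odd order, as used for `Sp_4`.
-/
import Cfsg.Agent.Fusion.SpFour.Model
import Cfsg.Agent.Linear.SylowSL2
import Mathlib.GroupTheory.SpecificGroups.Quaternion

set_option autoImplicit false
set_option linter.style.haveILetI false
set_option linter.unusedSectionVars false

namespace Cfsg.Agent.Fusion.SpFour

open QuaternionGroup

section Quat

variable {k : ℕ}

theorem quat_two_ne (hk : 1 ≤ k) : (2 : ZMod (2 * 2 ^ k)) ≠ 0 := by
  intro h
  have h' : ((2 : ℕ) : ZMod (2 * 2 ^ k)) = 0 := by exact_mod_cast h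
  rw [ZMod.natCast_eq_zero_iff] at h'
  have := Nat.le_of_dvd (by norm_num) h'
  have : 2 ≤ 2 ^ k := by
    calc 2 = 2 ^ 1 := rfl
      _ ≤ 2 ^ k := Nat.pow_le_pow_right (by norm_num) hk
  omega

theorem quat_central_sq (hk : 1 ≤ k) (x : QuaternionGroup (2 ^ k)) (h : ∀ y, x * y = y * x) :
    x * x = 1 := by
  rcases x with i | i
  · have e := h (xa 0)
    simp [a_mul_xa, xa_mul_a] at e
    rw [a_mul_a, ← a_zero]
    congr 1
    linear_combination -e
  · have e := h (a 1)
    simp [a_mul_xa, xa_mul_a] at e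
    exact absurd (by linear_combination e : (2 : ZMod (2 * 2 ^ k)) = 0) (quat_two_ne hk)

/-- The central involution. -/
def quatIota (k : ℕ) : QuaternionGroup (2 ^ k) := a ((2 ^ k : ℕ) : ZMod (2 * 2 ^ k))

theorem two_pow_add : ((2 ^ k : ℕ) : ZMod (2 * 2 ^ k)) + ((2 ^ k : ℕ) : ZMod (2 * 2 ^ k)) = 0 := by
  rw [← Nat.cast_add, ← two_mul, ZMod.natCast_self]

theorem quatIota_sq : quatIota k * quatIota k = 1 := by
  rw [quatIota, a_mul_a, two_pow_add, a_zero]

theorem quatIota_ne : quatIota k ≠ 1 := by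
  intro h
  rw [quatIota, ← a_zero] at h
  have h' := a.inj h
  rw [ZMod.natCast_eq_zero_iff] at h'
  have := Nat.le_of_dvd (Nat.two_pow_pos k) h'
  have := Nat.two_pow_pos k
  omega

theorem quat_xa_sq (i : ZMod (2 * 2 ^ k)) : xa i * xa i = quatIota k := by
  rw [xa_mul_xa, quatIota]; congr 1; simp

theorem quat_gen (hk : 1 ≤ k) (x : QuaternionGroup (2 ^ k)) :
    ∃ b c, b * b = quatIota k ∧ c * c = quatIota k ∧ x = b * c⁻¹ := by
  rcases x with i | i
  · refine ⟨xa 0, xa i, quat_xa_sq _, quat_xa_sq _, ?_⟩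
    rw [eq_mul_inv_iff_mul_eq, a_mul_xa, sub_self]
  · refine ⟨xa (i + ((2 ^ (k - 1) : ℕ) : ZMod (2 * 2 ^ k))),
      a ((2 ^ (k - 1) : ℕ) : ZMod (2 * 2 ^ k)), quat_xa_sq _, ?_, ?_⟩
    · have h2k : 2 * 2 ^ (k - 1) = 2 ^ k := by rw [← pow_succ', Nat.sub_add_cancel hk]
      rw [a_mul_a, quatIota, ← Nat.cast_add, ← two_mul, h2k]
    · rw [eq_mul_inv_iff_mul_eq, xa_mul_a]

theorem quat_sq_cases : ∀ x : QuaternionGroup (2 ^ 1),
    x = 1 ∨ x = quatIota 1 ∨ x * x = quatIota 1 := by
  decide

theorem quat_anticomm : ∀ x y : QuaternionGroup (2 ^ 1), x * x = quatIota 1 → y * y = quatIota 1 →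
    y ≠ x → y ≠ quatIota 1 * x → x * y = quatIota 1 * (y * x) := by
  decide

/-- An automorphism of odd order of a quaternion group of order at least 16 is trivial. -/
theorem quat_aut_eq_one (hk : 2 ≤ k) (f : QuaternionGroup (2 ^ k) →* QuaternionGroup (2 ^ k))
    {m : ℕ} (hm : Odd m) (hf : ∀ x, f^[m] x = x) (x : QuaternionGroup (2 ^ k)) : f x = x := by
  have hinj : Function.Injective f := by
    obtain ⟨n, rfl⟩ := hm
    intro x y h
    rw [← hf x, ← hf y, Function.iterate_add_apply, Function.iterate_add_apply, Function.iterate_one, h]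
  obtain ⟨u, hu⟩ : ∃ u, f (a 1) = a u := by
    rcases hfa : f (a 1) with u | u
    · exact ⟨u, rfl⟩
    · exfalso
      have h1 : f (a 1 ^ 4) = 1 := by
        rw [map_pow, hfa, show (4 : ℕ) = 2 * 2 from rfl, pow_mul, pow_two, pow_two, quat_xa_sq,
          quatIota_sq]
      rw [← map_one f] at h1
      have h2 := orderOf_dvd_of_pow_eq_one (hinj h1)
      rw [orderOf_a_one] at h2
      have := Nat.le_of_dvd (by norm_num) h2
      have : 2 ^ 2 ≤ 2 ^ k := Nat.pow_le_pow_right (by norm_num) hk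
      omega
  have hai : ∀ i : ZMod (2 * 2 ^ k), f (a i) = a (i * u) := by
    intro i
    obtain ⟨n, rfl⟩ : ∃ n : ℕ, (n : ZMod (2 * 2 ^ k)) = i := ⟨i.val, ZMod.natCast_zmod_val i⟩
    rw [← a_one_pow, map_pow, hu]
    induction n with
    | zero => rw [pow_zero, Nat.cast_zero, zero_mul, a_zero]
    | succ n ih => rw [pow_succ, ih, a_mul_a, Nat.cast_succ, add_mul, one_mul]
  have hit : ∀ j : ℕ, f^[j] (a 1) = a (u ^ j) := by
    intro j
    induction j with
    | zero => simp
    | succ j ih => rw [Function.iterate_succ_apply', ih, hai, pow_succ]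
  have hum : u ^ m = 1 := a.inj ((hit m).symm.trans (hf _))
  have hu1 : u = 1 := by
    obtain ⟨v, rfl⟩ : IsUnit u := IsUnit.of_pow_eq_one hum hm.pos.ne'
    have hvm : v ^ m = 1 := Units.ext (by simpa using hum)
    have h2 : orderOf v ∣ 2 ^ k := by
      have h := orderOf_dvd_natCard v
      have ht : Nat.totient (2 * 2 ^ k) = 2 ^ k := by
        rw [← pow_succ', Nat.totient_prime_pow_succ Nat.prime_two]; simp
      rwa [Nat.card_eq_fintype_card, ZMod.card_units_eq_totient, ht] at h
    have hcop : Nat.Coprime m (2 ^ k) :=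
      Nat.Coprime.pow_right k (hm.coprime_two_left.symm)
    rw [orderOf_eq_one_iff.mp (Nat.eq_one_of_dvd_coprimes hcop (orderOf_dvd_of_pow_eq_one hvm) h2)]
    rfl
  subst hu1
  simp only [mul_one] at hai
  obtain ⟨t, ht⟩ : ∃ t, f (xa 0) = xa t := by
    rcases hfx : f (xa 0) with t | t
    · exact absurd (hinj (hfx.trans (hai t).symm)) (by simp)
    · exact ⟨t, rfl⟩
  have hxa : ∀ s, f (xa s) = xa (t + s) := by
    intro s
    rw [show (xa s : QuaternionGroup (2 ^ k)) = xa 0 * a s by rw [xa_mul_a, zero_add], map_mul, ht, hai,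
      xa_mul_a]
  have hit2 : ∀ j : ℕ, f^[j] (xa 0) = xa ((j : ZMod (2 * 2 ^ k)) * t) := by
    intro j
    induction j with
    | zero => simp
    | succ j ih => rw [Function.iterate_succ_apply', ih, hxa, Nat.cast_succ]; congr 1; ring
  have hmt : (m : ZMod (2 * 2 ^ k)) * t = 0 := xa.inj ((hit2 m).symm.trans (hf _))
  have hmu : IsUnit (m : ZMod (2 * 2 ^ k)) := by
    rw [← pow_succ', ZMod.isUnit_iff_coprime]
    exact Nat.Coprime.pow_right _ (hm.coprime_two_left.symm)
  have ht0 : t = 0 := hmu.mul_right_eq_zero.mp hmt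
  rcases x with i | i
  · exact hai i
  · rw [hxa, ht0, zero_add]

end Quat

variable {F : Type*} [Field F] [Fintype F]

local notation "SL₂" => Matrix.SpecialLinearGroup (Fin 2) F

/-- The facts about a Sylow 2-subgroup of `SL_2`. -/
structure QFacts (Q : Subgroup (Matrix.SpecialLinearGroup (Fin 2) F)) : Prop where
  neg : -1 ∈ Q
  centre : ∀ x ∈ Q, (∀ y ∈ Q, x * y = y * x) → x = 1 ∨ x = -1
  gen : ∀ x ∈ Q, ∃ b ∈ Q, ∃ c ∈ Q, b * b = -1 ∧ c * c = -1 ∧ x = b * c⁻¹
  dich : (∀ (g : Matrix.SpecialLinearGroup (Fin 2) F) (m : ℕ), Odd m → g ^ m = 1 →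
      (∀ x ∈ Q, g * x * g⁻¹ ∈ Q) → ∀ x ∈ Q, g * x = x * g) ∨
    ((∀ x ∈ Q, x = 1 ∨ x = -1 ∨ x * x = -1) ∧
      ∀ x ∈ Q, ∀ y ∈ Q, x * x = -1 → y * y = -1 → y ≠ x → y ≠ -x → x * y = -(y * x))

theorem exists_qfacts (hodd : Fintype.card F % 2 = 1)
    (Q : Sylow 2 (Matrix.SpecialLinearGroup (Fin 2) F)) : QFacts (Q : Subgroup SL₂) := by
  classical
  obtain ⟨p, hchar⟩ := CharP.exists F
  haveI := hchar
  haveI hp : Fact p.Prime := ⟨CharP.char_is_prime F p⟩
  have hp2 : p ≠ 2 := fun h => by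
    subst h
    have := FiniteField.even_card_of_char_two (F := F) (ringChar.eq F 2)
    omega
  have h2 : (2 : F) ≠ 0 := fun h =>
    hp2 ((Nat.prime_dvd_prime_iff_eq hp.out Nat.prime_two).mp ((CharP.cast_eq_zero_iff F p 2).mp
      (by exact_mod_cast h)))
  obtain ⟨k, hk, ⟨e⟩⟩ := Linear.sylow_two_SL2 p hp2 Q
  haveI : NeZero (2 ^ k) := ⟨pow_ne_zero _ two_ne_zero⟩
  set ι : (Q : Subgroup SL₂) := e.symm (quatIota k) with hι
  have hιv : (ι : SL₂) = -1 := by
    have h1 : ι * ι = 1 := by rw [hι, ← map_mul, quatIota_sq, map_one]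
    rcases eq_or_eq_neg_of_sq h2 (congrArg Subtype.val h1) with h | h
    · exfalso
      have : ι = 1 := Subtype.ext h
      rw [hι, MulEquiv.map_eq_one_iff] at this
      exact quatIota_ne this
    · exact h
  have hiota : e ι = quatIota k := e.apply_symm_apply _
  have hsq : ∀ b, b * b = quatIota k → (e.symm b : SL₂) * (e.symm b : SL₂) = -1 := fun b hb => by
    rw [← hιv, ← Subgroup.coe_mul, ← map_mul, hb]
  have hsq' : ∀ x : (Q : Subgroup SL₂), (x : SL₂) * x = -1 → e x * e x = quatIota k := fun x hx => by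
    rw [← map_mul, show x * x = ι from Subtype.ext (hx.trans hιv.symm), hiota]
  refine ⟨hιv ▸ ι.2, fun x hx h => ?_, fun x hx => ?_, ?_⟩
  · refine eq_or_eq_neg_of_sq h2 ?_
    have h1 := quat_central_sq hk (e ⟨x, hx⟩) fun y => by
      obtain ⟨y, rfl⟩ := e.surjective y
      rw [← map_mul, ← map_mul]
      exact congrArg e (Subtype.ext (h y y.2))
    rw [← map_mul, MulEquiv.map_eq_one_iff] at h1
    exact congrArg Subtype.val h1
  · obtain ⟨b, c, hb, hc, hxe⟩ := quat_gen hk (e ⟨x, hx⟩)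
    refine ⟨_, (e.symm b).2, _, (e.symm c).2, hsq b hb, hsq c hc, ?_⟩
    have := congrArg (fun z => ((e.symm z : (Q : Subgroup SL₂)) : SL₂)) hxe
    simpa using this
  · rcases eq_or_lt_of_le hk with h1 | hk2
    · subst h1
      refine Or.inr ⟨fun x hx => ?_, fun x hx y hy hxx hyy hne hne' => ?_⟩
      · rcases quat_sq_cases (e ⟨x, hx⟩) with h | h | h
        · exact Or.inl (congrArg Subtype.val (e.map_eq_one_iff.mp h))
        · refine Or.inr (Or.inl ?_)
          rw [← hiota] at h
          exact (congrArg Subtype.val (e.injective h)).trans hιv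
        · refine Or.inr (Or.inr ?_)
          have h' := hsq _ h
          rwa [MulEquiv.symm_apply_apply] at h'
      · have h := quat_anticomm (e ⟨x, hx⟩) (e ⟨y, hy⟩) (hsq' _ hxx) (hsq' _ hyy)
          (fun h => hne (congrArg Subtype.val (e.injective h))) (fun h => hne' (by
            rw [← hiota, ← map_mul] at h
            have h' := congrArg Subtype.val (e.injective h)
            change y = (ι : SL₂) * x at h'
            rwa [hιv, neg_mul, one_mul] at h'))
        rw [← hiota, ← map_mul, ← map_mul, ← map_mul] at h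
        have h' := congrArg Subtype.val (e.injective h)
        change x * y = (ι : SL₂) * (y * x) at h'
        rwa [hιv, neg_mul, one_mul] at h'
    · refine Or.inl fun g m hm hgm hnorm => ?_
      let c : (Q : Subgroup SL₂) →* (Q : Subgroup SL₂) :=
        ((MulAut.conj g).toMonoidHom.comp (Q : Subgroup SL₂).subtype).codRestrict (Q : Subgroup SL₂)
          fun x => hnorm x x.2
      let f : QuaternionGroup (2 ^ k) →* QuaternionGroup (2 ^ k) :=
        e.toMonoidHom.comp (c.comp e.symm.toMonoidHom)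
      have hit : ∀ (j : ℕ) (x : (Q : Subgroup SL₂)),
          ((e.symm (f^[j] (e x)) : (Q : Subgroup SL₂)) : SL₂) = g ^ j * x * (g ^ j)⁻¹ := by
        intro j
        induction j with
        | zero => intro x; simp
        | succ j ih =>
          intro x
          rw [Function.iterate_succ_apply']
          show ((e.symm (e (c (e.symm (f^[j] (e x)))))) : SL₂) = _
          rw [e.symm_apply_apply]
          show g * _ * g⁻¹ = _
          rw [Subgroup.coe_subtype, ih, pow_succ']
          group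
      have hfm : ∀ y, f^[m] y = y := fun y => by
        obtain ⟨x, rfl⟩ := e.surjective y
        refine e.symm.injective (Subtype.ext ?_)
        rw [hit, hgm, e.symm_apply_apply]
        group
      intro x hx
      have h1 := quat_aut_eq_one hk2 f hm hfm (e ⟨x, hx⟩)
      have h2' := hit 1 ⟨x, hx⟩
      rw [Function.iterate_one, h1, e.symm_apply_apply, pow_one] at h2'
      conv_rhs => rw [show x = g * x * g⁻¹ from h2']
      group

end Cfsg.Agent.Fusion.SpFour
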