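/-
A Sylow 2-subgroup of `Sp_4` over a field of odd order.
-/
import Cfsg.Agent.Fusion.SpFour.Quat
import Cfsg.Agent.Forms.SympOrder
import Cfsg.Agent.Linear.Card

set_option autoImplicit false
set_option linter.style.haveILetI false
set_option linter.unusedSectionVars false

namespace Cfsg.Agent.Fusion.SpFour

open Matrix

variable {F : Type*} [Field F]

local notation "SL₂" => Matrix.SpecialLinearGroup (Fin 2) F
local notation "Sp₄" => Matrix.symplecticGroup (Fin 2) F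

theorem ng_comm (x : Sp₄) : x * ng = ng * x :=
  Subtype.ext (by
    show (x : M4 F) * (ng : Sp₄).1 = (ng : Sp₄).1 * (x : M4 F)
    rw [coe_ng]; simp)

theorem ng_mul_ng : (ng : Sp₄) * ng = 1 :=
  Subtype.ext (by
    show (ng : Sp₄).1 * (ng : Sp₄).1 = 1
    rw [coe_ng]; simp)

theorem ng_mul_Φ (a b : SL₂) : ng * Φ (a, b) = Φ (-a, -b) := by
  rw [ng, ← map_mul, Prod.mk_mul_mk, neg_one_mul, neg_one_mul]

theorem Φ_mul_Φ (a b c d : SL₂) : Φ (a, b) * Φ (c, d) = Φ (a * c, b * d) := by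
  rw [← map_mul, Prod.mk_mul_mk]

theorem Φ_inv (a b : SL₂) : (Φ (a, b))⁻¹ = Φ (a⁻¹, b⁻¹) := by
  rw [← map_inv, Prod.inv_mk]

theorem sig_inv : (sig : Sp₄)⁻¹ = sig := inv_eq_of_mul_eq_one_right sig_mul_sig

theorem sig_ne_Φ (a b : SL₂) : (sig : Sp₄) ≠ Φ (a, b) := fun h =>
  sg_ne_dg a.1 b.1 (θ_injective (congrArg Subtype.val h))

theorem Φ_mul_sig_ne (a b c d : SL₂) : Φ (a, b) * sig ≠ Φ (c, d) := fun h =>
  sig_ne_Φ (a⁻¹ * c) (b⁻¹ * d) (by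
    rw [← Φ_mul_Φ, ← Φ_inv, ← h, ← mul_assoc, inv_mul_cancel, one_mul])

theorem Φ_mul_sig_inj {a b c d : SL₂} (h : Φ (a, b) * sig = Φ (c, d) * sig) : a = c ∧ b = d :=
  Prod.mk.inj (Φ_injective (mul_right_cancel h))

theorem Φ_conj_sig (a b : SL₂) :
    Φ (a, b) * sig * (Φ (a, b))⁻¹ = Φ (a * b⁻¹, b * a⁻¹) * sig := by
  rw [Φ_inv, mul_assoc, sig_mul_Φ, ← mul_assoc, Φ_mul_Φ]

theorem Φ_conj_Φ (a b c d : SL₂) :
    Φ (a, b) * Φ (c, d) * (Φ (a, b))⁻¹ = Φ (a * c * a⁻¹, b * d * b⁻¹) := by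
  rw [Φ_inv, Φ_mul_Φ, Φ_mul_Φ]

theorem two_ne_zero_of_odd [Fintype F] (hodd : Fintype.card F % 2 = 1) : (2 : F) ≠ 0 := by
  intro h0
  have := (CharP.cast_eq_zero_iff F (ringChar F) 2).mp (by exact_mod_cast h0)
  have hp : ringChar F = 2 :=
    (Nat.prime_dvd_prime_iff_eq (CharP.char_is_prime F _) Nat.prime_two).mp this
  have := FiniteField.even_card_of_char_two hp
  omega

/-- `Q ≀ 2`. -/
def wr (Q : Subgroup (Matrix.SpecialLinearGroup (Fin 2) F)) :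
    Subgroup (Matrix.symplecticGroup (Fin 2) F) where
  carrier := {g | ∃ a ∈ Q, ∃ b ∈ Q, g = Φ (a, b) ∨ g = Φ (a, b) * sig}
  one_mem' := ⟨1, one_mem Q, 1, one_mem Q, Or.inl (by
    rw [show ((1 : SL₂), (1 : SL₂)) = 1 from rfl, map_one])⟩
  mul_mem' := by
    rintro x y ⟨a, ha, b, hb, rfl | rfl⟩ ⟨c, hc, d, hd, rfl | rfl⟩
    · exact ⟨a * c, mul_mem ha hc, b * d, mul_mem hb hd, Or.inl (Φ_mul_Φ _ _ _ _)⟩
    · exact ⟨a * c, mul_mem ha hc, b * d, mul_mem hb hd, Or.inr (by rw [← mul_assoc, Φ_mul_Φ])⟩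
    · exact ⟨a * d, mul_mem ha hd, b * c, mul_mem hb hc,
        Or.inr (by rw [mul_assoc, sig_mul_Φ, ← mul_assoc, Φ_mul_Φ])⟩
    · exact ⟨a * d, mul_mem ha hd, b * c, mul_mem hb hc, Or.inl (by
        rw [mul_assoc, ← mul_assoc sig, sig_mul_Φ, mul_assoc, sig_mul_sig, mul_one, Φ_mul_Φ])⟩
  inv_mem' := by
    rintro x ⟨a, ha, b, hb, rfl | rfl⟩
    · exact ⟨a⁻¹, inv_mem ha, b⁻¹, inv_mem hb, Or.inl (Φ_inv a b)⟩
    · exact ⟨b⁻¹, inv_mem hb, a⁻¹, inv_mem ha, Or.inr (by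
        rw [_root_.mul_inv_rev, Φ_inv, sig_inv, sig_mul_Φ])⟩

variable {Q : Subgroup (Matrix.SpecialLinearGroup (Fin 2) F)}

theorem Φ_mem_wr {a b : SL₂} (ha : a ∈ Q) (hb : b ∈ Q) : Φ (a, b) ∈ wr Q :=
  ⟨a, ha, b, hb, Or.inl rfl⟩

theorem sig_mem_wr : (sig : Sp₄) ∈ wr Q :=
  ⟨1, one_mem Q, 1, one_mem Q, Or.inr (by
    rw [show ((1 : SL₂), (1 : SL₂)) = 1 from rfl, map_one, one_mul])⟩

theorem of_Φ_mem_wr {a b : SL₂} (h : Φ (a, b) ∈ wr Q) : a ∈ Q ∧ b ∈ Q := by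
  obtain ⟨c, hc, d, hd, h | h⟩ := h
  · obtain ⟨rfl, rfl⟩ := Prod.mk.inj (Φ_injective h)
    exact ⟨hc, hd⟩
  · exact absurd h.symm (Φ_mul_sig_ne _ _ _ _)

theorem of_Φ_sig_mem_wr {a b : SL₂} (h : Φ (a, b) * sig ∈ wr Q) : a ∈ Q ∧ b ∈ Q := by
  obtain ⟨c, hc, d, hd, h | h⟩ := h
  · exact absurd h (Φ_mul_sig_ne _ _ _ _)
  · obtain ⟨rfl, rfl⟩ := Φ_mul_sig_inj h
    exact ⟨hc, hd⟩

theorem card_wr [Fintype F] (Q : Subgroup (Matrix.SpecialLinearGroup (Fin 2) F)) :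
    Nat.card (wr Q) = Nat.card Q * Nat.card Q * 2 := by
  let f : ((Q × Q) ⊕ (Q × Q)) → wr Q := fun x => match x with
    | Sum.inl y => ⟨Φ ((y.1 : SL₂), (y.2 : SL₂)), Φ_mem_wr y.1.2 y.2.2⟩
    | Sum.inr y => ⟨Φ ((y.1 : SL₂), (y.2 : SL₂)) * sig, mul_mem (Φ_mem_wr y.1.2 y.2.2) sig_mem_wr⟩
  have hf : Function.Bijective f := by
    refine ⟨fun x y h => ?_, ?_⟩
    · rcases x with ⟨a, b⟩ | ⟨a, b⟩ <;> rcases y with ⟨c, d⟩ | ⟨c, d⟩
      · have h' := Prod.mk.inj (Φ_injective (congrArg Subtype.val h))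
        rw [show a = c from Subtype.ext h'.1, show b = d from Subtype.ext h'.2]
      · exact absurd (congrArg Subtype.val h).symm (Φ_mul_sig_ne _ _ _ _)
      · exact absurd (congrArg Subtype.val h) (Φ_mul_sig_ne _ _ _ _)
      · have h' := Φ_mul_sig_inj (congrArg Subtype.val h)
        rw [show a = c from Subtype.ext h'.1, show b = d from Subtype.ext h'.2]
    · rintro ⟨x, a, ha, b, hb, rfl | rfl⟩
      · exact ⟨Sum.inl (⟨a, ha⟩, ⟨b, hb⟩), rfl⟩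
      · exact ⟨Sum.inr (⟨a, ha⟩, ⟨b, hb⟩), rfl⟩
  rw [← Nat.card_congr (Equiv.ofBijective f hf), Nat.card_sum, Nat.card_prod]
  ring

theorem isSylow_wr [Fintype F] (hodd : Fintype.card F % 2 = 1)
    (Q : Sylow 2 (Matrix.SpecialLinearGroup (Fin 2) F)) :
    Nat.card (wr (Q : Subgroup SL₂)) = 2 ^ (Nat.card Sp₄).factorization 2 := by
  classical
  rw [card_wr, Sylow.card_eq_multiplicity, Linear.card_SL_two, Forms.card_symplecticGroup rfl 2]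
  set q := Fintype.card F with hq
  have hq1 : 1 < q := Fintype.one_lt_card
  have h2q : ¬ 2 ∣ q := by omega
  have e4 : q ^ (2 * (1 + 1)) - 1 = (q ^ 2 - 1) * (q ^ 2 + 1) := by
    rw [mul_comm (q ^ 2 - 1), ← Nat.sq_sub_sq, one_pow, ← pow_mul]
  have hne : q ^ 2 - 1 ≠ 0 := by
    have : 1 < q ^ 2 := Nat.one_lt_pow two_ne_zero hq1
    omega
  obtain ⟨r, hr⟩ : ∃ r, q = 2 * r + 1 := ⟨q / 2, by omega⟩
  have h2 : q ^ 2 + 1 = 2 * (2 * (r * r + r) + 1) := by rw [hr]; ring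
  have hfac : (q ^ 2 + 1).factorization 2 = 1 := by
    rw [h2, Nat.factorization_mul two_ne_zero (Nat.succ_ne_zero _), Finsupp.add_apply,
      Nat.prime_two.factorization_self, Nat.factorization_eq_zero_of_not_dvd (n := 2 * (r * r + r) + 1) (by omega)]
  have hA : (q * (q ^ 2 - 1)).factorization 2 = (q ^ 2 - 1).factorization 2 := by
    rw [Nat.factorization_mul (by omega) hne, Finsupp.add_apply,
      Nat.factorization_eq_zero_of_not_dvd h2q, zero_add]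
  have hB : (q ^ (2 ^ 2) * ((q ^ 2 - 1) * ((q ^ 2 - 1) * (q ^ 2 + 1)))).factorization 2 =
      (q ^ 2 - 1).factorization 2 + (q ^ 2 - 1).factorization 2 + 1 := by
    have hs : q ^ 2 + 1 ≠ 0 := Nat.succ_ne_zero _
    rw [Nat.factorization_mul (pow_ne_zero _ (by omega)) (mul_ne_zero hne (mul_ne_zero hne hs)),
      Nat.factorization_mul hne (mul_ne_zero hne hs), Nat.factorization_mul hne hs,
      Nat.factorization_pow]
    simp only [Finsupp.add_apply, Finsupp.smul_apply, smul_eq_mul]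
    rw [Nat.factorization_eq_zero_of_not_dvd h2q, hfac, mul_zero, zero_add, add_assoc]
  rw [Finset.prod_range_succ, Finset.prod_range_succ, Finset.prod_range_zero, one_mul,
    show 2 * (0 + 1) = 2 from rfl, e4, hA, hB, ← pow_add, ← pow_succ]

end Cfsg.Agent.Fusion.SpFour
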