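/-
Elements `(1+r)(1+s)/2` of `Sp_4` for square roots `r`, `s` of `-1`.
-/
import Cfsg.Agent.Fusion.SpFour.Sylow

set_option autoImplicit false
set_option linter.style.haveILetI false
set_option linter.unusedSectionVars false

namespace Cfsg.Agent.Fusion.SpFour

open Matrix

variable {F : Type*} [Field F]

local notation "SL₂" => Matrix.SpecialLinearGroup (Fin 2) F
local notation "Sp₄" => Matrix.symplecticGroup (Fin 2) F

theorem one_add_J {r : M4 F} (hr : r ∈ Matrix.symplecticGroup (Fin 2) F) (hrr : r * r = -1) :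
    (1 + r) * Matrix.J (Fin 2) F * (1 + r)ᵀ = (2 : F) • Matrix.J (Fin 2) F := by
  rw [SymplecticGroup.mem_iff] at hr
  have h : Matrix.J (Fin 2) F * rᵀ = -(r * Matrix.J (Fin 2) F) := by
    have h1 := congrArg (r * ·) hr
    simp only [← mul_assoc, hrr] at h1
    rw [neg_one_mul, neg_mul] at h1
    rw [← h1, neg_neg]
  rw [transpose_add, transpose_one, add_mul, one_mul, add_mul, mul_add, mul_one, mul_add, mul_one,
    hr, h, two_smul]
  abel

variable (h2 : (2 : F) ≠ 0)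
include h2

theorem uel_mem {r s : M4 F} (hr : r ∈ Matrix.symplecticGroup (Fin 2) F) (hrr : r * r = -1)
    (hs : s ∈ Matrix.symplecticGroup (Fin 2) F) (hss : s * s = -1) :
    (2 : F)⁻¹ • ((1 + r) * (1 + s)) ∈ Matrix.symplecticGroup (Fin 2) F := by
  rw [SymplecticGroup.mem_iff, transpose_smul, transpose_mul]
  calc (2 : F)⁻¹ • ((1 + r) * (1 + s)) * Matrix.J (Fin 2) F * (2 : F)⁻¹ • ((1 + s)ᵀ * (1 + r)ᵀ)
      = ((2 : F)⁻¹ * (2 : F)⁻¹) •
          ((1 + r) * ((1 + s) * Matrix.J (Fin 2) F * (1 + s)ᵀ) * (1 + r)ᵀ) := by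
        simp only [smul_mul_assoc, mul_smul_comm, smul_smul, mul_assoc]
    _ = Matrix.J (Fin 2) F := by
        rw [one_add_J hs hss, mul_smul_comm, smul_mul_assoc, one_add_J hr hrr, smul_smul, smul_smul,
          show (2 : F)⁻¹ * (2 : F)⁻¹ * 2 * 2 = 1 by field_simp, one_smul]

omit h2 in
theorem coe_mul_self_eq {r : Sp₄} (hr : r * r = ng) : (r : M4 F) * r = -1 := by
  rw [← coe_ng (F := F), ← hr]; rfl

/-- `(1+r)(1+s)/2`. -/
def uel (r s : Matrix.symplecticGroup (Fin 2) F) (hr : r * r = ng) (hs : s * s = ng) :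
    Matrix.symplecticGroup (Fin 2) F :=
  ⟨(2 : F)⁻¹ • ((1 + (r : M4 F)) * (1 + (s : M4 F))),
    uel_mem h2 r.2 (coe_mul_self_eq hr) s.2 (coe_mul_self_eq hs)⟩

theorem uel_sq (r s : Sp₄) (hr : r * r = ng) (hs : s * s = ng) (hrs : r * s = s * r) :
    uel h2 r s hr hs * uel h2 r s hr hs = r * s := by
  refine Subtype.ext ?_
  show (2 : F)⁻¹ • ((1 + (r : M4 F)) * (1 + (s : M4 F))) *
    (2 : F)⁻¹ • ((1 + (r : M4 F)) * (1 + (s : M4 F))) = (r : M4 F) * s
  have hc : (r : M4 F) * s = s * r := congrArg Subtype.val hrs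
  have hcc : (1 + (s : M4 F)) * (1 + (r : M4 F)) = (1 + (r : M4 F)) * (1 + (s : M4 F)) := by
    simp only [add_mul, mul_add, one_mul, mul_one, hc]; abel
  have e : ∀ x : M4 F, x * x = -1 → (1 + x) * (1 + x) = (2 : F) • x := fun x hx => by
    rw [add_mul, one_mul, mul_add, mul_one, hx, two_smul]; abel
  rw [smul_mul_assoc, mul_smul_comm, smul_smul, mul_assoc (1 + (r : M4 F)),
    ← mul_assoc (1 + (s : M4 F)), hcc, mul_assoc (1 + (r : M4 F)), ← mul_assoc (1 + (r : M4 F)),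
    e _ (coe_mul_self_eq hr), e _ (coe_mul_self_eq hs), smul_mul_assoc, mul_smul_comm, smul_smul,
    smul_smul, show (2 : F)⁻¹ * (2 : F)⁻¹ * 2 * 2 = 1 by field_simp, one_smul]

theorem uel_pow_four (r s : Sp₄) (hr : r * r = ng) (hs : s * s = ng) (hrs : r * s = s * r) :
    uel h2 r s hr hs ^ 4 = 1 := by
  rw [show (4 : ℕ) = 2 * 2 from rfl, pow_mul, pow_two, pow_two, uel_sq h2 r s hr hs hrs,
    mul_assoc, ← mul_assoc s, ← hrs, mul_assoc r, hs, ← mul_assoc, hr, ng_mul_ng]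

theorem uel_comm (r s : Sp₄) (hr : r * r = ng) (hs : s * s = ng) {x : Sp₄} (hrx : r * x = x * r)
    (hsx : s * x = x * s) : uel h2 r s hr hs * x = x * uel h2 r s hr hs := by
  refine Subtype.ext ?_
  show (2 : F)⁻¹ • ((1 + (r : M4 F)) * (1 + (s : M4 F))) * (x : M4 F) =
    (x : M4 F) * (2 : F)⁻¹ • ((1 + (r : M4 F)) * (1 + (s : M4 F)))
  have h1 : (r : M4 F) * x = x * r := congrArg Subtype.val hrx
  have h3 : (s : M4 F) * x = x * s := congrArg Subtype.val hsx
  rw [smul_mul_assoc, mul_smul_comm, mul_assoc, add_mul 1 (s : M4 F), one_mul, h3,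
    ← mul_one_add, ← mul_assoc, add_mul 1 (r : M4 F), one_mul, h1, ← mul_one_add, mul_assoc]

theorem uel_conj_left (r s : Sp₄) (hr : r * r = ng) (hs : s * s = ng) {x : Sp₄}
    (hrx : r * x = ng * (x * r)) (hsx : s * x = x * s) :
    uel h2 r s hr hs * x = r * x * uel h2 r s hr hs := by
  refine Subtype.ext ?_
  show (2 : F)⁻¹ • ((1 + (r : M4 F)) * (1 + (s : M4 F))) * (x : M4 F) =
    (r : M4 F) * x * (2 : F)⁻¹ • ((1 + (r : M4 F)) * (1 + (s : M4 F)))
  have h1 : (r : M4 F) * x = -((x : M4 F) * r) := by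
    rw [← neg_one_mul, ← coe_ng (F := F)]
    exact congrArg Subtype.val hrx
  have h3 : (s : M4 F) * x = x * s := congrArg Subtype.val hsx
  have h5 : (1 + (r : M4 F)) * x = (r : M4 F) * x * (1 + (r : M4 F)) := by
    rw [mul_add, mul_one, add_mul, one_mul, h1, neg_mul, mul_assoc _ (r : M4 F),
      coe_mul_self_eq hr, mul_neg, mul_one, neg_neg]
    abel
  rw [smul_mul_assoc, mul_smul_comm, mul_assoc, add_mul 1 (s : M4 F), one_mul, h3,
    ← mul_one_add, ← mul_assoc (1 + (r : M4 F)), h5, mul_assoc]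

theorem uel_conj_right (r s : Sp₄) (hr : r * r = ng) (hs : s * s = ng) (hrs : r * s = s * r)
    {x : Sp₄} (hrx : r * x = x * r) (hsx : s * x = ng * (x * s)) :
    uel h2 r s hr hs * x = s * x * uel h2 r s hr hs := by
  refine Subtype.ext ?_
  show (2 : F)⁻¹ • ((1 + (r : M4 F)) * (1 + (s : M4 F))) * (x : M4 F) =
    (s : M4 F) * x * (2 : F)⁻¹ • ((1 + (r : M4 F)) * (1 + (s : M4 F)))
  have h1 : (s : M4 F) * x = -((x : M4 F) * s) := by
    rw [← neg_one_mul, ← coe_ng (F := F)]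
    exact congrArg Subtype.val hsx
  have h5 : (1 + (s : M4 F)) * x = (s : M4 F) * x * (1 + (s : M4 F)) := by
    rw [mul_add, mul_one, add_mul, one_mul, h1, neg_mul, mul_assoc _ (s : M4 F),
      coe_mul_self_eq hs, mul_neg, mul_one, neg_neg]
    abel
  have h6 : (r : M4 F) * ((s : M4 F) * x) = (s : M4 F) * x * r := by
    have e1 : (r : M4 F) * s = s * r := congrArg Subtype.val hrs
    have e2 : (r : M4 F) * x = x * r := congrArg Subtype.val hrx
    rw [← mul_assoc, e1, mul_assoc, e2, mul_assoc]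
  rw [smul_mul_assoc, mul_smul_comm, mul_assoc, h5, ← mul_assoc (1 + (r : M4 F)),
    add_mul 1 (r : M4 F) ((s : M4 F) * x), one_mul, h6, ← mul_one_add, mul_assoc]

omit h2 in
theorem θdg_smul (c : F) (a b : M2 F) : θ (dg (c • a) (c • b)) = c • θ (dg a b) := by
  ext i j
  rcases i with i | i <;> rcases j with j | j <;> fin_cases i <;> fin_cases j <;>
    simp [θ_apply, spIdx, dg]

omit h2 in
theorem θdg_one_add (a : M2 F) : θ (dg (1 + a) (1 + a)) = 1 + θ (dg a a) := by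
  rw [← map_one (θ : B2 F →+* M4 F), ← map_add, ← dg_one]
  congr 1
  ext k l : 2
  fin_cases k <;> fin_cases l <;> simp [dg]

variable [Fintype F]

theorem det_one_add_of_sq {i : SL₂} (hi : i * i = -1) : ((1 : M2 F) + i.1).det = 2 := by
  let j : SL₂ := ⟨j0, by simp [j0, Matrix.det_fin_two]⟩
  have hj : j * j = -1 := Subtype.ext (by
    show (j0 : M2 F) * j0 = -1
    ext k l
    fin_cases k <;> fin_cases l <;> simp [j0, Matrix.mul_apply, Fin.sum_univ_two])
  obtain ⟨c, hc⟩ := exists_conj_of_sq_neg_one h2 hj hi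
  have hcc : c.1 * (c⁻¹ : SL₂).1 = 1 := congrArg Subtype.val (mul_inv_cancel c)
  have h : (1 : M2 F) + i.1 = c.1 * (1 + j0) * (c⁻¹ : SL₂).1 := by
    rw [mul_add, mul_one, add_mul, hcc]
    exact congrArg (1 + ·) (congrArg Subtype.val hc).symm
  rw [h, Matrix.det_mul, Matrix.det_mul, c.2, (c⁻¹ : SL₂).2, one_mul, mul_one]
  simp [j0, Matrix.det_fin_two]
  norm_num

theorem exists_rot {i j : SL₂} (hi : i * i = -1) (hj : j * j = -1) (hij : i * j = -(j * i)) :
    ∃ u : SL₂, u.1 = (2 : F)⁻¹ • ((1 + i.1) * (1 + j.1)) ∧ u * i = j * u ∧ u * j = i * j * u := by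
  refine ⟨⟨(2 : F)⁻¹ • ((1 + i.1) * (1 + j.1)), ?_⟩, rfl, Subtype.ext ?_, Subtype.ext ?_⟩
  · rw [Matrix.det_smul, Matrix.det_mul, det_one_add_of_sq h2 hi, det_one_add_of_sq h2 hj,
      Fintype.card_fin]
    field_simp
  all_goals
    have ei : i.1 * i.1 = -1 := congrArg Subtype.val hi
    have ej : j.1 * j.1 = -1 := congrArg Subtype.val hj
    have eij : i.1 * j.1 = -(j.1 * i.1) := congrArg Subtype.val hij
  · show (2 : F)⁻¹ • ((1 + i.1) * (1 + j.1)) * i.1 = j.1 * (2 : F)⁻¹ • ((1 + i.1) * (1 + j.1))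
    rw [smul_mul_assoc, mul_smul_comm]
    congr 1
    have e1 : i.1 * j.1 * i.1 = j.1 := by
      rw [eij, neg_mul, mul_assoc, ei, mul_neg, mul_one, neg_neg]
    have e2 : j.1 * (i.1 * j.1) = i.1 := by
      rw [eij, mul_neg, ← mul_assoc, ej, neg_mul, one_mul, neg_neg]
    simp only [add_mul, mul_add, one_mul, mul_one, ei, ej, e1, e2]
    abel
  · show (2 : F)⁻¹ • ((1 + i.1) * (1 + j.1)) * j.1 =
      i.1 * j.1 * (2 : F)⁻¹ • ((1 + i.1) * (1 + j.1))
    rw [smul_mul_assoc, mul_smul_comm]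
    congr 1
    have e1 : i.1 * j.1 * j.1 = -i.1 := by rw [mul_assoc, ej, mul_neg, mul_one]
    have e2 : i.1 * j.1 * i.1 = j.1 := by
      rw [eij, neg_mul, mul_assoc, ei, mul_neg, mul_one, neg_neg]
    have e3 : i.1 * j.1 * (i.1 * j.1) = -1 := by rw [← mul_assoc, e2, ej]
    simp only [add_mul, mul_add, one_mul, mul_one, ei, ej, e1, e2, e3]
    abel

/-- The diagonal rotation is a product of two of the elements `uel`. -/
theorem Φ_rot_eq {i j u : SL₂} 
    (hu : u.1 = (2 : F)⁻¹ • ((1 + i.1) * (1 + j.1))) (s s' : Sp₄) (hss : s * s = ng)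
    (hss' : s' * s' = ng) (hsn : s' = ng * s) (hsj : s * Φ (j, j) = Φ (j, j) * s)
    (hii : Φ (i, i) * Φ (i, i) = ng) (hjj : Φ (j, j) * Φ (j, j) = ng) :
    Φ (u, u) = uel h2 (Φ (i, i)) s hii hss * uel h2 (Φ (j, j)) s' hjj hss' := by
  refine Subtype.ext ?_
  show θ (dg u.1 u.1) = (2 : F)⁻¹ • ((1 + θ (dg i.1 i.1)) * (1 + (s : M4 F))) *
    (2 : F)⁻¹ • ((1 + θ (dg j.1 j.1)) * (1 + (s' : M4 F)))
  have hs' : (s' : M4 F) = -(s : M4 F) := by
    rw [hsn]
    show (ng : Sp₄).1 * (s : M4 F) = _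
    rw [coe_ng, neg_one_mul]
  have e : (1 + (s : M4 F)) * (1 + θ (dg j.1 j.1)) = (1 + θ (dg j.1 j.1)) * (1 + (s : M4 F)) := by
    have hc : (s : M4 F) * θ (dg j.1 j.1) = θ (dg j.1 j.1) * s := congrArg Subtype.val hsj
    simp only [add_mul, mul_add, one_mul, mul_one, hc]; abel
  have e2 : (1 + (s : M4 F)) * (1 + -(s : M4 F)) = (2 : F) • 1 := by
    simp only [add_mul, mul_add, one_mul, mul_one, mul_neg, coe_mul_self_eq hss, two_smul]; abel
  rw [hu, θdg_smul, ← dg_mul, map_mul, θdg_one_add, θdg_one_add, hs', smul_mul_assoc, mul_smul_comm,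
    smul_smul, mul_assoc (1 + θ (dg i.1 i.1)) (1 + (s : M4 F)), ← mul_assoc (1 + (s : M4 F)), e,
    mul_assoc (1 + θ (dg j.1 j.1)), e2, mul_smul_comm, mul_one, mul_smul_comm, smul_smul]
  congr 1
  field_simp

end Cfsg.Agent.Fusion.SpFour
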