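/-
The centric subgroup `(Q8 × Q8).2`-part realising the diagonal element of order three.
-/
import Cfsg.Agent.Fusion.SpFour.Quad
import Cfsg.Agent.Fusion.SimpleCriterion

set_option autoImplicit false
set_option linter.style.haveILetI false
set_option linter.unusedSectionVars false

namespace Cfsg.Agent.Fusion.SpFour

open Matrix Cfsg Cfsg.FusionSystem

section General

variable {G : Type*} [Group G]

theorem closure_conj_mem {s : Set G} {g : G} (h : ∀ x ∈ s, g * x * g⁻¹ ∈ Subgroup.closure s) :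
    ∀ x ∈ Subgroup.closure s, g * x * g⁻¹ ∈ Subgroup.closure s := by
  intro x hx
  exact (Subgroup.closure_le ((Subgroup.closure s).comap (MulAut.conj g).toMonoidHom)).mpr h hx

/-- Up to the sign `n`, `h` and `x` commute. -/
def Sgn (n h x : G) : Prop := h * x = x * h ∨ h * x = n * (x * h)

theorem sgn_mul {n h e x : G} (hn : ∀ y, y * n = n * y) (he : e * x = x * e) (hh : Sgn n h x) :
    Sgn n (h * e) x := by
  rcases hh with hh | hh
  · exact Or.inl (by rw [mul_assoc, he, ← mul_assoc, hh, mul_assoc])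
  · exact Or.inr (by rw [mul_assoc, he, ← mul_assoc, hh, mul_assoc, mul_assoc])

theorem sgn_fix {n h e x : G} (hn : ∀ y, y * n = n * y) (hnn : n * n = 1)
    (he : e * x = n * (x * e)) (hh : h * x = n * (x * h)) : h * e * x = x * (h * e) := by
  rw [mul_assoc, he, ← mul_assoc h n, hn h, mul_assoc n, ← mul_assoc h x, hh, mul_assoc n (x * h),
    ← mul_assoc n n, hnn, one_mul, mul_assoc]

theorem comm_of_sq {w x : G} {m : ℕ} (hm : Odd m) (hw : w ^ m = 1) (h : Commute (w * w) x) :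
    Commute w x := by
  obtain ⟨k, rfl⟩ := hm
  have : w = (w * w) ^ (k + 1) := by
    rw [← pow_two, ← pow_mul, show 2 * (k + 1) = 2 * k + 1 + 1 by ring, pow_succ, hw, one_mul]
  rw [this]
  exact h.pow_left _

end General

variable {F : Type*} [Field F] [Fintype F] {P : Type*} [Group P] [Finite P]

local notation "SL₂" => Matrix.SpecialLinearGroup (Fin 2) F
local notation "Sp₄" => Matrix.symplecticGroup (Fin 2) F

theorem prod_sq_of_anticomm {i j : SL₂} (hi : i * i = -1) (hj : j * j = -1)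
    (hij : i * j = -(j * i)) : i * j * (i * j) = -1 := by
  rw [mul_assoc, ← mul_assoc j, show j * i = -(i * j) by rw [hij, neg_neg], neg_mul, mul_neg,
    mul_assoc i j j, hj, ← mul_assoc, hi, mul_neg_one, neg_neg]

theorem eq_prod_of_anticomm (h2 : (2 : F) ≠ 0) {i j c : SL₂} (hi : i * i = -1) (hj : j * j = -1)
    (hij : i * j = -(j * i)) (ai : i * c = -(c * i)) (aj : j * c = -(c * j)) :
    c = i * j ∨ c = -(i * j) := by
  have e1 : i * j * i = -(i * (i * j)) := by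
    rw [hij, mul_neg, neg_neg, ← hij, mul_assoc]
  have e2 : i * j * j = -(j * (i * j)) := by
    have : j * (i * j) = i := by rw [hij, mul_neg, ← mul_assoc, hj, neg_one_mul, neg_neg]
    rw [this, mul_assoc, hj, mul_neg_one]
  have di : c * (i * j) * i = i * (c * (i * j)) := by
    rw [mul_assoc, e1, ← mul_assoc i c, ai, mul_neg, neg_mul, mul_assoc c i]
  have dj : c * (i * j) * j = j * (c * (i * j)) := by
    rw [mul_assoc, e2, ← mul_assoc j c, aj, mul_neg, neg_mul, mul_assoc c j]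
  rcases scalar_of_commute h2 hi hij di dj with h | h
  · refine Or.inr (mul_right_cancel (h.trans ?_))
    rw [neg_mul, prod_sq_of_anticomm hi hj hij, neg_neg]
  · exact Or.inl (mul_right_cancel (h.trans (prod_sq_of_anticomm hi hj hij).symm))

variable {π : Matrix.symplecticGroup (Fin 2) F →* P}
  (hπ : Function.Surjective π) (hker : ∀ g, π g = 1 ↔ g = 1 ∨ g = ng)

include hker in
theorem π_ng : π ng = 1 := (hker ng).mpr (Or.inr rfl)

include hker in
theorem π_ng_mul (x : Sp₄) : π (ng * x) = π x := by rw [map_mul, π_ng hker, one_mul]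

include hker in
theorem eq_or_of_π_eq {x y : Sp₄} (h : π x = π y) : x = y ∨ x = ng * y := by
  have : π (x * y⁻¹) = 1 := by rw [map_mul, map_inv, h, mul_inv_cancel]
  rcases (hker _).mp this with h' | h'
  · exact Or.inl (mul_inv_eq_one.mp h')
  · exact Or.inr (by rw [← h']; group)

include hker in
theorem mem_of_π_mem {H : Subgroup Sp₄} (hn : ng ∈ H) {x : Sp₄} (h : π x ∈ H.map π) : x ∈ H := by
  obtain ⟨y, hy, e⟩ := h
  rcases eq_or_of_π_eq hker e.symm with rfl | rfl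
  · exact hy
  · exact mul_mem hn hy

theorem conj_mem_normalizer {H : Subgroup Sp₄} {g : Sp₄} (h : ∀ x ∈ H, g * x * g⁻¹ ∈ H) :
    π g ∈ Subgroup.normalizer ((H.map π : Subgroup P) : Set P) := by
  refine Subgroup.mem_normalizer_fintype fun y hy => ?_
  obtain ⟨x, hx, rfl⟩ := hy
  exact ⟨g * x * g⁻¹, h x hx, by rw [map_mul, map_mul, map_inv]⟩

/-- The automizer elements needed: those induced by 2-elements of normalizers of centric subgroups. -/
def target (S : Subgroup P) : Subgroup (MulAut S) :=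
  ⨆ (R : Subgroup P) (_ : (groupFusionSystem S).IsFullyNormalized R ∧
      (groupFusionSystem S).IsCentric R),
    autInducedBy (Subgroup.closure {g : P | g ∈ Subgroup.normalizer (R : Set P) ∧
      ∃ k : ℕ, orderOf g = 2 ^ k}) S

theorem two_elt_mem {R : Subgroup P} {g : P} (hg : g ∈ Subgroup.normalizer (R : Set P))
    {k : ℕ} (hk : g ^ 2 ^ k = 1) :
    g ∈ Subgroup.closure {g : P | g ∈ Subgroup.normalizer (R : Set P) ∧
      ∃ k : ℕ, orderOf g = 2 ^ k} := by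
  obtain ⟨i, -, hi⟩ := (Nat.dvd_prime_pow Nat.prime_two).mp (orderOf_dvd_of_pow_eq_one hk)
  exact Subgroup.subset_closure ⟨hg, i, hi⟩

include hπ hker in
/-- The rotation of `Q8` acts as a map generated on a centric subgroup. -/
theorem rot_mem_target (hodd : Fintype.card F % 2 = 1)
    {Q : Subgroup (Matrix.SpecialLinearGroup (Fin 2) F)} (hQ : QFacts Q)
    (hq : ∀ x ∈ Q, x = 1 ∨ x = -1 ∨ x * x = -1)
    (hanti : ∀ x ∈ Q, ∀ y ∈ Q, x * x = -1 → y * y = -1 → y ≠ x → y ≠ -x → x * y = -(y * x))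
    {S : Subgroup P} (hS : S = (wr Q).map π)
    {i j w : Matrix.SpecialLinearGroup (Fin 2) F} (hiQ : i ∈ Q) (hjQ : j ∈ Q) (hi : i * i = -1)
    (hj : j * j = -1) (hij : i * j = -(j * i)) (hwi : w * i = j * w) (hwj : w * j = i * j * w)
    (n : ↥((⊤ : Subgroup P) ⊓ Subgroup.normalizer (S : Set P))) (hn : (n : P) = π (Φ (w, w))) :
    actHom ⊤ S n ∈ target S := by
  have h2 : (2 : F) ≠ 0 := two_ne_zero_of_odd hodd
  have hne1 : (-1 : SL₂) ≠ 1 := neg_one_ne h2
  set s₀ : Set Sp₄ := {Φ (i, i), Φ (j, j), dz, sig} with hs₀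
  set R₀ : Subgroup Sp₄ := Subgroup.closure s₀ with hR₀
  have gI : Φ (i, i) ∈ R₀ := Subgroup.subset_closure (by simp [hs₀])
  have gJ : Φ (j, j) ∈ R₀ := Subgroup.subset_closure (by simp [hs₀])
  have gD : (dz : Sp₄) ∈ R₀ := Subgroup.subset_closure (by simp [hs₀])
  have gS : (sig : Sp₄) ∈ R₀ := Subgroup.subset_closure (by simp [hs₀])
  have hII : Φ (i, i) * Φ (i, i) = (ng : Sp₄) := by rw [Φ_mul_Φ, hi]; rfl
  have hJJ : Φ (j, j) * Φ (j, j) = (ng : Sp₄) := by rw [Φ_mul_Φ, hj]; rfl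
  have gN : (ng : Sp₄) ∈ R₀ := hII ▸ mul_mem gI gI
  have hIJ : Φ (i, i) * Φ (j, j) = ng * (Φ (j, j) * Φ (i, i)) := by
    rw [Φ_mul_Φ, Φ_mul_Φ, ng_mul_Φ, hij]
  have hJI : Φ (j, j) * Φ (i, i) = ng * (Φ (i, i) * Φ (j, j)) := by
    rw [hIJ, ← mul_assoc, ng_mul_ng, one_mul]
  have hsdz : (sig : Sp₄) * dz = ng * (dz * sig) := by
    rw [dz, sig_mul_Φ, ← mul_assoc, ng_mul_Φ, neg_neg]
  have hdsg : (dz : Sp₄) * sig = ng * (sig * dz) := by
    rw [hsdz, ← mul_assoc, ng_mul_ng, one_mul]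
  have hcD : ∀ c : SL₂, dz * Φ (c, c) = Φ (c, c) * dz := fun c => by
    rw [dz, Φ_mul_Φ, Φ_mul_Φ, one_mul, mul_one, mul_neg_one, neg_one_mul]
  have hcS : ∀ c : SL₂, sig * Φ (c, c) = Φ (c, c) * sig := fun c => sig_mul_Φ c c
  -- the elements of `Q`
  have hcases : ∀ c ∈ Q, (c = 1 ∨ c = -1) ∨ (c = i ∨ c = -i) ∨ (c = j ∨ c = -j) ∨
      (c = i * j ∨ c = -(i * j)) := by
    intro c hc
    rcases hq c hc with h | h | hcc
    · exact Or.inl (Or.inl h)
    · exact Or.inl (Or.inr h)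
    by_cases h1 : c = i ∨ c = -i
    · exact Or.inr (Or.inl h1)
    by_cases h3 : c = j ∨ c = -j
    · exact Or.inr (Or.inr (Or.inl h3))
    push Not at h1 h3
    exact Or.inr (Or.inr (Or.inr (eq_prod_of_anticomm h2 hi hj hij
      (hanti i hiQ c hc hi hcc h1.1 h1.2) (hanti j hjQ c hc hj hcc h3.1 h3.2))))
  have hdiag : ∀ c ∈ Q, Φ (c, c) ∈ R₀ := by
    have hneg : ∀ c, Φ (c, c) ∈ R₀ → Φ (-c, -c) ∈ R₀ := fun c hc => by
      rw [← ng_mul_Φ]; exact mul_mem gN hc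
    intro c hc
    have h1 : Φ ((1 : SL₂), (1 : SL₂)) ∈ R₀ := by
      rw [show ((1 : SL₂), (1 : SL₂)) = 1 from rfl, map_one]; exact one_mem _
    have hk : Φ (i * j, i * j) ∈ R₀ := by rw [← Φ_mul_Φ]; exact mul_mem gI gJ
    rcases hcases c hc with (rfl | rfl) | (rfl | rfl) | (rfl | rfl) | (rfl | rfl)
    exacts [h1, hneg _ h1, gI, hneg _ gI, gJ, hneg _ gJ, hk, hneg _ hk]
  have hsign : ∀ c ∈ Q, Φ (c, -c) ∈ R₀ ∧ Φ (-c, c) ∈ R₀ := fun c hc => by
    have h1 : Φ (c, -c) ∈ R₀ := by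
      have := mul_mem gD (hdiag c hc)
      rwa [dz, Φ_mul_Φ, one_mul, neg_one_mul] at this
    refine ⟨h1, ?_⟩
    have := mul_mem gN h1
    rwa [ng_mul_Φ, neg_neg] at this
  have hpm : ∀ a ∈ Q, ∀ c ∈ Q, c * c = -1 → a * c * a⁻¹ = c ∨ a * c * a⁻¹ = -c := by
    intro a ha c hc hcc
    rcases hq a ha with rfl | rfl | haa
    · left; group
    · left; rw [neg_one_mul, inv_neg, inv_one, neg_mul_neg, mul_one]
    by_cases h : a = c ∨ a = -c
    · left
      rcases h with rfl | rfl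
      · group
      · rw [neg_mul, inv_neg, neg_mul_neg]; group
    · push Not at h
      right
      have := hanti c hc a ha hcc haa h.1 h.2
      rw [show a * c = -(c * a) by rw [this, neg_neg], neg_mul, mul_inv_cancel_right]
  have hinv : ∀ c ∈ Q, c⁻¹ = c ∨ c⁻¹ = -c := by
    intro c hc
    rcases hq c hc with rfl | rfl | hcc
    · left; simp
    · left; rw [inv_neg, inv_one]
    · right; exact inv_eq_of_mul_eq_one_right (by rw [mul_neg, hcc, neg_neg])
  -- the Sylow subgroup normalises `R₀`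
  have hwrR : ∀ y ∈ wr Q, ∀ x ∈ R₀, y * x * y⁻¹ ∈ R₀ := by
    have key : ∀ a ∈ Q, ∀ b ∈ Q, ∀ x ∈ R₀, Φ (a, b) * x * (Φ (a, b))⁻¹ ∈ R₀ := by
      intro a ha b hb
      refine closure_conj_mem fun x hx => ?_
      simp only [hs₀, Set.mem_insert_iff, Set.mem_singleton_iff] at hx
      rcases hx with rfl | rfl | rfl | rfl
      · rw [Φ_conj_Φ]
        rcases hpm a ha i hiQ hi with e | e <;> rcases hpm b hb i hiQ hi with e' | e' <;> rw [e, e']
        exacts [gI, (hsign i hiQ).1, (hsign i hiQ).2, ng_mul_Φ i i ▸ mul_mem gN gI]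
      · rw [Φ_conj_Φ]
        rcases hpm a ha j hjQ hj with e | e <;> rcases hpm b hb j hjQ hj with e' | e' <;> rw [e, e']
        exacts [gJ, (hsign j hjQ).1, (hsign j hjQ).2, ng_mul_Φ j j ▸ mul_mem gN gJ]
      · rw [dz, Φ_conj_Φ, mul_one, mul_inv_cancel, mul_neg_one, neg_mul, mul_inv_cancel]
        exact gD
      · rw [Φ_conj_sig]
        refine mul_mem ?_ gS
        set c := a * b⁻¹ with hc
        have hcQ : c ∈ Q := mul_mem ha (inv_mem hb)
        rw [show b * a⁻¹ = c⁻¹ by rw [hc]; group]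
        rcases hinv c hcQ with e | e <;> rw [e]
        exacts [hdiag c hcQ, (hsign c hcQ).1]
    have keyS : ∀ x ∈ R₀, sig * x * sig⁻¹ ∈ R₀ := fun x hx =>
      mul_mem (mul_mem gS hx) (inv_mem gS)
    rintro y ⟨a, ha, b, hb, rfl | rfl⟩ x hx
    · exact key a ha b hb x hx
    · have := key a ha b hb _ (keyS x hx)
      rwa [show Φ (a, b) * sig * x * (Φ (a, b) * sig)⁻¹ =
        Φ (a, b) * (sig * x * sig⁻¹) * (Φ (a, b))⁻¹ by group]
  -- `R₀` gives a fully normalised centric subgroup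
  set R : Subgroup P := R₀.map π with hR
  have hR₀le : R₀ ≤ wr Q := by
    rw [hR₀, Subgroup.closure_le, hs₀]
    intro x hx
    simp only [Set.mem_insert_iff, Set.mem_singleton_iff] at hx
    rcases hx with rfl | rfl | rfl | rfl
    exacts [Φ_mem_wr hiQ hiQ, Φ_mem_wr hjQ hjQ, Φ_mem_wr (one_mem Q) hQ.neg, sig_mem_wr]
  have hRS : R ≤ S := hS ▸ Subgroup.map_mono hR₀le
  have hSN : S ≤ Subgroup.normalizer (R : Set P) := by
    rw [hS]
    rintro _ ⟨y, hy, rfl⟩
    exact conj_mem_normalizer (hwrR y hy)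
  have hRn : (groupFusionSystem S).IsFullyNormalized R := ⟨hRS, fun T _ => by
    rw [show normalizerIn S R = S from inf_eq_left.mpr hSN]
    exact Subgroup.card_le_of_le inf_le_left⟩
  have hcent : ∀ y : P, (∀ x ∈ R, y * x = x * y) → y ∈ R := by
    intro y hy
    obtain ⟨h, rfl⟩ := hπ y
    have hsg : ∀ x ∈ R₀, Sgn ng h x := fun x hx =>
      eq_or_of_π_eq hker (by rw [map_mul, map_mul]; exact hy _ ⟨x, hx, rfl⟩)
    suffices ∃ e ∈ R₀, h * e ∈ R₀ by
      obtain ⟨e, he, hhe⟩ := this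
      exact ⟨h, by simpa using mul_mem hhe (inv_mem he), rfl⟩
    obtain ⟨e1, he1, a1, b1, c1, d1⟩ : ∃ e ∈ R₀, (h * e * Φ (i, i) = Φ (i, i) * (h * e)) ∧
        Sgn ng (h * e) (Φ (j, j)) ∧ Sgn ng (h * e) dz ∧ Sgn ng (h * e) sig := by
      rcases hsg _ gI with e | e
      · exact ⟨1, one_mem _, by rwa [mul_one], by rw [mul_one]; exact hsg _ gJ,
          by rw [mul_one]; exact hsg _ gD, by rw [mul_one]; exact hsg _ gS⟩
      · exact ⟨Φ (j, j), gJ, sgn_fix ng_comm ng_mul_ng hJI e, sgn_mul ng_comm rfl (hsg _ gJ),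
          sgn_mul ng_comm (hcD j).symm (hsg _ gD), sgn_mul ng_comm (hcS j).symm (hsg _ gS)⟩
    set h1 := h * e1
    obtain ⟨e2, he2, a2, b2, c2, d2⟩ : ∃ e ∈ R₀, (h1 * e * Φ (i, i) = Φ (i, i) * (h1 * e)) ∧
        (h1 * e * Φ (j, j) = Φ (j, j) * (h1 * e)) ∧ Sgn ng (h1 * e) dz ∧ Sgn ng (h1 * e) sig := by
      rcases b1 with e | e
      · exact ⟨1, one_mem _, by rwa [mul_one], by rwa [mul_one], by rwa [mul_one], by rwa [mul_one]⟩
      · refine ⟨Φ (i, i), gI, ?_, sgn_fix ng_comm ng_mul_ng hIJ e,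
          sgn_mul ng_comm (hcD i).symm c1, sgn_mul ng_comm (hcS i).symm d1⟩
        rw [← mul_assoc, ← a1]
    set h3 := h1 * e2
    obtain ⟨e3, he3, a3, b3, c3, d3⟩ : ∃ e ∈ R₀, (h3 * e * Φ (i, i) = Φ (i, i) * (h3 * e)) ∧
        (h3 * e * Φ (j, j) = Φ (j, j) * (h3 * e)) ∧ (h3 * e * dz = dz * (h3 * e)) ∧
        Sgn ng (h3 * e) sig := by
      rcases c2 with e | e
      · exact ⟨1, one_mem _, by rwa [mul_one], by rwa [mul_one], by rwa [mul_one], by rwa [mul_one]⟩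
      · refine ⟨sig, gS, ?_, ?_, sgn_fix ng_comm ng_mul_ng hsdz e, sgn_mul ng_comm rfl d2⟩
        · rw [mul_assoc, hcS, ← mul_assoc, a2, mul_assoc]
        · rw [mul_assoc, hcS, ← mul_assoc, b2, mul_assoc]
    set h4 := h3 * e3
    obtain ⟨e4, he4, a4, b4, c4, d4⟩ : ∃ e ∈ R₀, (h4 * e * Φ (i, i) = Φ (i, i) * (h4 * e)) ∧
        (h4 * e * Φ (j, j) = Φ (j, j) * (h4 * e)) ∧ (h4 * e * dz = dz * (h4 * e)) ∧
        (h4 * e * sig = sig * (h4 * e)) := by
      rcases d3 with e | e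
      · exact ⟨1, one_mem _, by rwa [mul_one], by rwa [mul_one], by rwa [mul_one], by rwa [mul_one]⟩
      · refine ⟨dz, gD, ?_, ?_, ?_, sgn_fix ng_comm ng_mul_ng hdsg e⟩
        · rw [mul_assoc, hcD, ← mul_assoc, a3, mul_assoc]
        · rw [mul_assoc, hcD, ← mul_assoc, b3, mul_assoc]
        · rw [← mul_assoc, ← c3]
    refine ⟨e1 * e2 * e3 * e4, mul_mem (mul_mem (mul_mem he1 he2) he3) he4, ?_⟩
    rw [show h * (e1 * e2 * e3 * e4) = h4 * e4 by simp only [h4, h3, h1, mul_assoc]]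
    obtain ⟨a, b, hab⟩ := exists_Φ_of_comm_dz h2 c4
    rw [hab] at a4 b4 d4 ⊢
    rw [sig_mul_Φ] at d4
    obtain ⟨rfl, -⟩ := Φ_mul_sig_inj d4
    rw [Φ_mul_Φ, Φ_mul_Φ] at a4 b4
    rcases scalar_of_commute h2 hi hij (Prod.mk.inj (Φ_injective a4)).1
      (Prod.mk.inj (Φ_injective b4)).1 with rfl | rfl
    · rw [show ((1 : SL₂), (1 : SL₂)) = 1 from rfl, map_one]; exact one_mem _
    · exact gN
  have hRc : (groupFusionSystem S).IsCentric R := by
    refine ⟨hRS, ?_⟩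
    rintro _ ⟨φ, ⟨-, -, g, hg⟩, rfl⟩ x ⟨-, hx⟩
    have : g⁻¹ * x * g ∈ R := hcent _ fun r hr => by
      have h := Subgroup.mem_centralizer_iff.mp hx (φ ⟨r, hr⟩) ⟨_, rfl⟩
      rw [hg] at h
      calc g⁻¹ * x * g * r = g⁻¹ * (x * (g * r * g⁻¹)) * g := by group
        _ = g⁻¹ * (g * r * g⁻¹ * x) * g := by rw [← h]
        _ = r * (g⁻¹ * x * g) := by group
    exact ⟨⟨_, this⟩, by rw [hg]; group⟩
  -- the element itself
  have hu' := exists_rot h2 hi hj hij
  obtain ⟨u, hu, hui, huj⟩ := hu'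
  set s : Sp₄ := dz * sig with hs
  have hss : s * s = ng := by
    rw [hs, mul_assoc, ← mul_assoc sig, hsdz, mul_assoc ng, mul_assoc dz sig sig, sig_mul_sig, mul_one,
      ← mul_assoc, ng_comm, mul_assoc, dz_mul_dz, mul_one]
  have hsc : ∀ c : SL₂, s * Φ (c, c) = Φ (c, c) * s := fun c => by
    rw [hs, mul_assoc, hcS, ← mul_assoc, hcD, mul_assoc]
  set s' : Sp₄ := ng * s with hs'
  have hss' : s' * s' = ng := by
    rw [hs', mul_assoc, ← mul_assoc s ng, ng_comm, mul_assoc ng s s, hss, ← mul_assoc, ng_mul_ng,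
      one_mul]
  have hsc' : ∀ c : SL₂, s' * Φ (c, c) = Φ (c, c) * s' := fun c => by
    rw [hs', mul_assoc, hsc, ← mul_assoc, ← ng_comm, mul_assoc]
  have hsD : s * dz = ng * (dz * s) := by
    rw [hs, mul_assoc, hsdz, ← mul_assoc, ng_comm, mul_assoc]
  have hsS : s * sig = ng * (sig * s) := by
    calc s * sig = ng * (sig * dz) * sig := by rw [hs, ← hdsg]
      _ = ng * (sig * s) := by rw [hs, mul_assoc ng, mul_assoc sig]
  have hflip : ∀ x, s * x = ng * (x * s) → s' * x = ng * (x * s') := fun x h => by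
    rw [hs', mul_assoc, h, ← mul_assoc x ng, ng_comm, mul_assoc ng x]
  have hU : ∀ {c d : SL₂} (hcc : Φ (c, c) * Φ (c, c) = (ng : Sp₄)) (_ : Φ (c, c) ∈ R₀)
      (_ : Φ (d, d) ∈ R₀) (_ : Φ (c, c) * Φ (d, d) = ng * (Φ (d, d) * Φ (c, c)))
      (t : Sp₄) (htt : t * t = ng) (_ : t ∈ R₀) (_ : ∀ e : SL₂, t * Φ (e, e) = Φ (e, e) * t)
      (_ : t * dz = ng * (dz * t)) (_ : t * sig = ng * (sig * t)),
      (∀ x, x = Φ (c, c) ∨ x = Φ (d, d) ∨ x = dz ∨ x = sig →
        uel h2 (Φ (c, c)) t hcc htt * x * (uel h2 (Φ (c, c)) t hcc htt)⁻¹ ∈ R₀) ∧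
      π (uel h2 (Φ (c, c)) t hcc htt) ^ 2 ^ 2 = 1 := by
    intro c d hcc hcR hdR hcd t htt htR htc htd hts
    refine ⟨?_, by rw [← map_pow, show 2 ^ 2 = 4 from rfl, uel_pow_four h2 _ _ _ _ (htc c).symm,
      map_one]⟩
    rintro x (rfl | rfl | rfl | rfl)
    · rw [uel_comm h2 _ _ _ _ rfl (htc c), mul_inv_cancel_right]; exact hcR
    · rw [uel_conj_left h2 _ _ _ _ hcd (htc d), mul_inv_cancel_right]; exact mul_mem hcR hdR
    · rw [uel_conj_right h2 _ _ _ _ (htc c).symm (hcD c).symm htd, mul_inv_cancel_right]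
      exact mul_mem htR gD
    · rw [uel_conj_right h2 _ _ _ _ (htc c).symm (hcS c).symm hts, mul_inv_cancel_right]
      exact mul_mem htR gS
  have hsR : s ∈ R₀ := mul_mem gD gS
  obtain ⟨hA, hA4⟩ := hU hII gI gJ hIJ s hss hsR hsc hsD hsS
  obtain ⟨hB, hB4⟩ := hU hJJ gJ gI hJI s' hss' (mul_mem gN hsR) hsc' (hflip _ hsD) (hflip _ hsS)
  have hnA : π (uel h2 (Φ (i, i)) s hII hss) ∈ Subgroup.normalizer (R : Set P) :=
    conj_mem_normalizer (closure_conj_mem fun x hx => hA x (by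
      simpa [hs₀] using hx))
  have hnB : π (uel h2 (Φ (j, j)) s' hJJ hss') ∈ Subgroup.normalizer (R : Set P) :=
    conj_mem_normalizer (closure_conj_mem fun x hx => hB x (by
      simp [hs₀] at hx; tauto))
  have hwu : π (Φ (w, w)) = π (Φ (u, u)) := by
    have c1 : u⁻¹ * w * i = i * (u⁻¹ * w) := by
      rw [mul_assoc, hwi, ← mul_assoc, ← mul_assoc, show u⁻¹ * j = i * u⁻¹ by
        rw [eq_mul_inv_iff_mul_eq, mul_assoc, ← hui, inv_mul_cancel_left]]
    have c2 : u⁻¹ * w * j = j * (u⁻¹ * w) := by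
      rw [mul_assoc, hwj, ← mul_assoc, ← mul_assoc j, show u⁻¹ * (i * j) = j * u⁻¹ by
        rw [eq_mul_inv_iff_mul_eq, mul_assoc, ← huj, inv_mul_cancel_left]]
    rcases scalar_of_commute h2 hi hij c1 c2 with e | e
    · rw [inv_mul_eq_one.mp e]
    · obtain rfl : w = -u := by rw [inv_mul_eq_iff_eq_mul.mp e, mul_neg_one]
      rw [← ng_mul_Φ, π_ng_mul hker]
  have hmem : (n : P) ∈ Subgroup.closure {g : P | g ∈ Subgroup.normalizer (R : Set P) ∧
      ∃ k : ℕ, orderOf g = 2 ^ k} := by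
    rw [hn, hwu, Φ_rot_eq h2 hu s s' hss hss' hs' (hsc j) hII hJJ, map_mul]
    exact mul_mem (two_elt_mem hnA hA4) (two_elt_mem hnB hB4)
  have hle : autInducedBy (Subgroup.closure {g : P | g ∈ Subgroup.normalizer (R : Set P) ∧
      ∃ k : ℕ, orderOf g = 2 ^ k}) S ≤ target S :=
    le_iSup₂_of_le R ⟨hRn, hRc⟩ le_rfl
  exact hle (mem_autInducedBy.mpr ⟨n, hmem, n.2.2, actHom_apply ⊤ S n⟩)

end Cfsg.Agent.Fusion.SpFour
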