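/-
The 2-fusion system of `PSp_4` over a field of odd order is simple.
-/
import Cfsg.Agent.Fusion.SpFour.Rot

set_option autoImplicit false
set_option linter.style.haveILetI false
set_option linter.unusedSectionVars false

namespace Cfsg.Agent.Fusion.SpFour

open Matrix Cfsg Cfsg.FusionSystem

variable {F : Type*} [Field F] [Fintype F] {P : Type*} [Group P] [Finite P]

local notation "SL₂" => Matrix.SpecialLinearGroup (Fin 2) F
local notation "Sp₄" => Matrix.symplecticGroup (Fin 2) F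

variable {π : Matrix.symplecticGroup (Fin 2) F →* P}
  (hπ : Function.Surjective π) (hker : ∀ g, π g = 1 ↔ g = 1 ∨ g = ng)

include hker in
/-- The only central involution of the Sylow subgroup is the image of `(1, -1)`. -/
theorem central_eq_dz (hodd : Fintype.card F % 2 = 1)
    {Q : Subgroup (Matrix.SpecialLinearGroup (Fin 2) F)} (hQ : QFacts Q) {z : P}
    (hz : z ∈ (wr Q).map π) (hz1 : z ≠ 1) (hc : ∀ s ∈ (wr Q).map π, s * z = z * s) :
    z = π dz := by
  have h2 : (2 : F) ≠ 0 := two_ne_zero_of_odd hodd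
  have hne1 : (-1 : SL₂) ≠ 1 := neg_one_ne h2
  have hneg : ∀ b : SL₂, b ≠ -b := fun b h =>
    hne1 (mul_left_cancel (a := b) (by rw [mul_one, mul_neg_one, ← h]))
  obtain ⟨x, hx, rfl⟩ := hz
  have hsg : ∀ y ∈ wr Q, x * y = y * x ∨ x * y = ng * (y * x) := fun y hy =>
    eq_or_of_π_eq hker (by rw [map_mul, map_mul]; exact (hc _ ⟨y, hy, rfl⟩).symm)
  obtain ⟨a, ha, b, hb, rfl | rfl⟩ := hx
  · have hac : ∀ c ∈ Q, a * c = c * a := by
      intro c hc'
      rcases hsg _ (Φ_mem_wr hc' (one_mem Q)) with e | e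
      · rw [Φ_mul_Φ, Φ_mul_Φ] at e
        exact (Prod.mk.inj (Φ_injective e)).1
      · rw [Φ_mul_Φ, Φ_mul_Φ, ng_mul_Φ] at e
        have := (Prod.mk.inj (Φ_injective e)).2
        rw [mul_one, one_mul] at this
        exact absurd this (hneg b)
    have hbc : ∀ c ∈ Q, b * c = c * b := by
      intro c hc'
      rcases hsg _ (Φ_mem_wr (one_mem Q) hc') with e | e
      · rw [Φ_mul_Φ, Φ_mul_Φ] at e
        exact (Prod.mk.inj (Φ_injective e)).2
      · rw [Φ_mul_Φ, Φ_mul_Φ, ng_mul_Φ] at e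
        have := (Prod.mk.inj (Φ_injective e)).1
        rw [mul_one, one_mul] at this
        exact absurd this (hneg a)
    rcases hQ.centre a ha hac with rfl | rfl <;> rcases hQ.centre b hb hbc with rfl | rfl
    · exact absurd (by rw [show ((1 : SL₂), (1 : SL₂)) = 1 from rfl, map_one, map_one]) hz1
    · rfl
    · rw [show Φ ((-1 : SL₂), (1 : SL₂)) = ng * dz by rw [dz, ng_mul_Φ, neg_neg], π_ng_mul hker]
    · exact absurd (π_ng hker) hz1
  · exfalso
    obtain ⟨c, hc', -, -, hcc, -, -⟩ := hQ.gen 1 (one_mem Q)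
    have : b * 1 = b * c := by
      have eL : Φ (a, b) * sig * Φ (c, 1) = Φ (a, b * c) * sig := by
        rw [mul_assoc, sig_mul_Φ, ← mul_assoc, Φ_mul_Φ, mul_one]
      have eR : Φ (c, 1) * (Φ (a, b) * sig) = Φ (c * a, b) * sig := by
        rw [← mul_assoc, Φ_mul_Φ, one_mul]
      rcases hsg _ (Φ_mem_wr hc' (one_mem Q)) with e | e <;> rw [eL, eR] at e
      · rw [mul_one]; exact (Φ_mul_sig_inj e).2.symm
      · exfalso
        rw [← mul_assoc, ng_mul_Φ] at e
        obtain ⟨e1, e2⟩ := Φ_mul_sig_inj e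
        have hc1 : c = -1 := mul_left_cancel (a := b) (by rw [e2, mul_neg_one])
        rw [hc1, neg_mul_neg, one_mul] at hcc
        exact hne1 hcc.symm
    rw [← mul_left_cancel this, one_mul] at hcc
    exact hne1 hcc.symm

include hker in
/-- No proper strongly closed subgroup. -/
theorem closed_trivial (hodd : Fintype.card F % 2 = 1)
    {Q : Subgroup (Matrix.SpecialLinearGroup (Fin 2) F)} (hQ : QFacts Q) {S T : Subgroup P}
    (hS : S = (wr Q).map π) (hSp : IsPGroup 2 S) (hT : (groupFusionSystem S).StronglyClosed T) :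
    T = ⊥ ∨ T = S := by
  haveI : Fact (Nat.Prime 2) := ⟨Nat.prime_two⟩
  have h2 : (2 : F) ≠ 0 := two_ne_zero_of_odd hodd
  rcases eq_or_ne T ⊥ with h0 | h0
  · exact Or.inl h0
  refine Or.inr (le_antisymm hT.1 ?_)
  obtain ⟨z, hzT, hz2, hzc⟩ := stronglyClosed_exists_central hSp hT h0
  have hz1 : z ≠ 1 := fun h => by rw [h, orderOf_one] at hz2; omega
  obtain rfl := central_eq_dz hker hodd hQ (hS ▸ hT.1 hzT) hz1 (hS ▸ hzc)
  have hconj : ∀ {z : P} {x : Sp₄}, z ∈ T → x ∈ wr Q → (∃ y : Sp₄, z = π y ∧ ∃ h, h * y * h⁻¹ = x) →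
      π x ∈ T := by
    intro z x hz hx ⟨y, hy, h, hh⟩
    refine stronglyClosed_conj_mem hT hz (hS ▸ ⟨x, hx, rfl⟩) ?_
    exact _root_.isConj_iff.mpr ⟨π h, by rw [hy, ← map_inv, ← map_mul, ← map_mul, hh]⟩
  obtain ⟨h₀, hh₀⟩ := exists_conj_dz_sig (F := F) h2
  have hsig : π (sig : Sp₄) ∈ T := hconj hzT sig_mem_wr ⟨dz, rfl, h₀, hh₀⟩
  have hdiff : ∀ a ∈ Q, π (Φ (a, a⁻¹)) ∈ T := by
    intro a ha
    have h : π (Φ (a, a⁻¹) * sig) ∈ T :=
      hconj hsig (mul_mem (Φ_mem_wr ha (inv_mem ha)) sig_mem_wr)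
        ⟨sig, rfl, Φ (a, 1), by rw [Φ_conj_sig, inv_one, mul_one, one_mul]⟩
    have := mul_mem h hsig
    rwa [← map_mul, mul_assoc, sig_mul_sig, mul_one] at this
  have hab : ∀ a ∈ Q, ∀ b ∈ Q, a * a = -1 → b * b = -1 → π (Φ (a, b)) ∈ T := by
    intro a ha b hb haa hbb
    have hinv : a⁻¹ * a⁻¹ = -1 := by rw [← _root_.mul_inv_rev, haa, inv_neg, inv_one]
    obtain ⟨c, hc⟩ := exists_conj_of_sq_neg_one h2 hinv hbb
    refine hconj (hdiff a ha) (Φ_mem_wr ha hb) ⟨_, rfl, Φ (1, c), ?_⟩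
    rw [Φ_conj_Φ, hc, one_mul, inv_one, mul_one]
  have hone : ∀ x ∈ Q, π (Φ (1, x)) ∈ T ∧ π (Φ (x, 1)) ∈ T := by
    intro x hx
    obtain ⟨b, hb, c, hc, hbb, hcc, rfl⟩ := hQ.gen x hx
    constructor
    · have := mul_mem (hab b hb b hb hbb hbb) (inv_mem (hab b hb c hc hbb hcc))
      rwa [← map_inv, ← map_mul, Φ_inv, Φ_mul_Φ, mul_inv_cancel] at this
    · have := mul_mem (hab b hb b hb hbb hbb) (inv_mem (hab c hc b hb hcc hbb))
      rwa [← map_inv, ← map_mul, Φ_inv, Φ_mul_Φ, mul_inv_cancel] at this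
  have hall : ∀ a ∈ Q, ∀ b ∈ Q, π (Φ (a, b)) ∈ T := by
    intro a ha b hb
    have := mul_mem (hone a ha).2 (hone b hb).1
    rwa [← map_mul, Φ_mul_Φ, mul_one, one_mul] at this
  rw [hS]
  rintro _ ⟨_, ⟨a, ha, b, hb, rfl | rfl⟩, rfl⟩
  · exact hall a ha b hb
  · rw [map_mul]; exact mul_mem (hall a ha b hb) hsig

include hπ hker in
/-- The automizer of the Sylow subgroup is generated on centric subgroups. -/
theorem aut_le_target (hodd : Fintype.card F % 2 = 1)
    {Q : Subgroup (Matrix.SpecialLinearGroup (Fin 2) F)} (hQ : QFacts Q) {S : Subgroup P}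
    (hQ2 : IsPGroup 2 Q) (hS : S = (wr Q).map π) : autInducedBy ⊤ S ≤ target S := by
  have h2 : (2 : F) ≠ 0 := two_ne_zero_of_odd hodd
  have hngW : (ng : Sp₄) ∈ wr Q := Φ_mem_wr hQ.neg hQ.neg
  set H := (target S).comap (actHom ⊤ S) with hH
  rw [← range_actHom]
  suffices ∀ n, n ∈ H by
    rintro _ ⟨n, rfl⟩
    exact this n
  have htwo : ∀ n : ↥((⊤ : Subgroup P) ⊓ Subgroup.normalizer (S : Set P)), ∀ k : ℕ,
      (n : P) ^ 2 ^ k = 1 → n ∈ H := by
    intro n k hk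
    have hRR : (groupFusionSystem S).IsFullyNormalized S ∧ (groupFusionSystem S).IsCentric S :=
      ⟨fullyNormalized_self, isCentric_self⟩
    have hle : autInducedBy (Subgroup.closure {g : P | g ∈ Subgroup.normalizer (S : Set P) ∧
        ∃ k : ℕ, orderOf g = 2 ^ k}) S ≤ target S :=
      le_iSup₂_of_le S hRR le_rfl
    exact hle (mem_autInducedBy.mpr ⟨n, two_elt_mem n.2.2 hk, n.2.2, actHom_apply ⊤ S n⟩)
  have hodd' : ∀ n : ↥((⊤ : Subgroup P) ⊓ Subgroup.normalizer (S : Set P)), ∀ m : ℕ, Odd m →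
      (n : P) ^ m = 1 → n ∈ H := by
    intro n m hm hnm
    obtain ⟨g₀, hg₀⟩ := hπ (n : P)
    set g := g₀ ^ (m + 1) with hgdef
    have hgn : π g = (n : P) := by rw [hgdef, map_pow, hg₀, pow_succ, hnm, one_mul]
    have hgm : g ^ m = 1 := by
      have h1 : g₀ ^ m = 1 ∨ g₀ ^ m = ng := (hker _).mp (by rw [map_pow, hg₀, hnm])
      have h3 : (g₀ ^ m) ^ 2 = 1 := by
        rcases h1 with e | e <;> rw [e]
        · exact one_pow _
        · rw [pow_two, ng_mul_ng]
      obtain ⟨l, rfl⟩ := hm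
      rw [hgdef, ← pow_mul, show (2 * l + 1 + 1) * (2 * l + 1) = (2 * l + 1) * 2 * (l + 1) by ring,
        pow_mul, pow_mul, h3, one_pow]
    have hnormS : ∀ x ∈ wr Q, g * x * g⁻¹ ∈ wr Q := fun x hx => by
      refine mem_of_π_mem hker hngW ?_
      rw [map_mul, map_mul, map_inv, hgn, ← hS]
      exact (cj_mem_iff n.2.2 _).mpr (hS ▸ ⟨x, hx, rfl⟩)
    have hz : (n : P) * π dz * (n : P)⁻¹ = π dz := by
      have hdzW : (dz : Sp₄) ∈ wr Q := Φ_mem_wr (one_mem Q) hQ.neg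
      refine central_eq_dz hker hodd hQ
        (hS ▸ (cj_mem_iff n.2.2 _).mpr (hS ▸ ⟨dz, hdzW, rfl⟩)) (fun h => ?_) fun s hs => ?_
      · have h' : π dz = 1 := by
          calc π dz = (n : P)⁻¹ * ((n : P) * π dz * (n : P)⁻¹) * n := by group
            _ = 1 := by rw [h]; group
        rcases (hker _).mp h' with e | e
        · rw [dz, ← map_one Φ] at e
          exact neg_one_ne h2 (congrArg Prod.snd (Φ_injective e))
        · exact neg_one_ne h2 (congrArg Prod.fst (Φ_injective e)).symm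
      · obtain ⟨y, hy, rfl⟩ : ∃ y ∈ S, (n : P) * y * (n : P)⁻¹ = s := by
          refine ⟨(n : P)⁻¹ * s * n, (cj_mem_iff n.2.2 _).mp ?_, by group⟩
          rw [cj_apply, show (n : P) * ((n : P)⁻¹ * s * n) * (n : P)⁻¹ = s by group, hS]
          exact hs
        have hcomm : y * π dz = π dz * y := by
          rw [hS] at hy
          obtain ⟨_, ⟨a, ha, b, hb, rfl | rfl⟩, rfl⟩ := hy
          · rw [← map_mul, ← map_mul, dz, Φ_mul_Φ, Φ_mul_Φ, mul_one, one_mul, neg_one_mul,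
              mul_neg_one]
          · rw [← map_mul, ← map_mul, mul_assoc, dz, sig_mul_Φ, ← mul_assoc, ← mul_assoc, Φ_mul_Φ,
              Φ_mul_Φ, mul_one, one_mul, ← π_ng_mul hker (Φ (a * -1, b) * sig), ← mul_assoc,
              ng_mul_Φ, mul_neg_one, neg_neg, neg_one_mul]
        calc (n : P) * y * (n : P)⁻¹ * ((n : P) * π dz * (n : P)⁻¹)
            = (n : P) * (y * π dz) * (n : P)⁻¹ := by group
          _ = (n : P) * π dz * (n : P)⁻¹ * ((n : P) * y * (n : P)⁻¹) := by rw [hcomm]; group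
    have hgdz : Commute g dz := by
      refine comm_of_sq hm hgm ?_
      rcases eq_or_of_π_eq hker (x := g * dz * g⁻¹) (y := dz)
        (by rw [map_mul, map_mul, map_inv, hgn, hz]) with e | e
      · have hc : Commute g dz := mul_inv_eq_iff_eq_mul.mp e
        exact hc.mul_left hc
      · have h' : g * dz = ng * (dz * g) := by rw [← mul_assoc]; exact mul_inv_eq_iff_eq_mul.mp e
        show g * g * dz = dz * (g * g)
        rw [mul_assoc, h', ← mul_assoc g, ng_comm, mul_assoc ng g, ← mul_assoc g dz, h',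
          mul_assoc ng _ g, ← mul_assoc ng ng, ng_mul_ng, one_mul, mul_assoc]
    obtain ⟨g1, g2, hg12⟩ := exists_Φ_of_comm_dz h2 hgdz
    rw [hg12] at hgn hgm hnormS
    rw [← map_pow, Prod.pow_mk, ← map_one Φ] at hgm
    have hg2m : g2 ^ m = 1 := congrArg Prod.snd (Φ_injective hgm)
    have hn2 : ∀ a ∈ Q, g2 * a * g2⁻¹ ∈ Q := fun a ha => by
      have := hnormS _ (Φ_mem_wr (one_mem Q) ha)
      rw [Φ_conj_Φ] at this
      exact (of_Φ_mem_wr this).2
    have he : g1 * g2⁻¹ ∈ Q := by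
      have := hnormS _ sig_mem_wr
      rw [Φ_conj_sig] at this
      exact (of_Φ_sig_mem_wr this).1
    have heS : π (Φ (g1 * g2⁻¹, 1)) ∈ S := hS ▸ ⟨_, Φ_mem_wr he (one_mem Q), rfl⟩
    set n1 : ↥((⊤ : Subgroup P) ⊓ Subgroup.normalizer (S : Set P)) :=
      ⟨π (Φ (g1 * g2⁻¹, 1)), trivial, Subgroup.le_normalizer heS⟩
    obtain ⟨k, hk⟩ : ∃ k, (π (Φ (g1 * g2⁻¹, 1))) ^ 2 ^ k = 1 := by
      obtain ⟨k, hk⟩ := hQ2 ⟨g1 * g2⁻¹, he⟩
      replace hk : (g1 * g2⁻¹) ^ 2 ^ k = 1 := by simpa using congrArg Subtype.val hk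
      exact ⟨k, by rw [← map_pow, ← map_pow, Prod.pow_mk, hk, one_pow,
        show ((1 : SL₂), (1 : SL₂)) = 1 from rfl, map_one, map_one]⟩
    have hn1 : n1 ∈ H := htwo n1 k hk
    suffices n1⁻¹ * n ∈ H by
      have h := mul_mem hn1 this
      rwa [mul_inv_cancel_left] at h
    set n2 := n1⁻¹ * n with hn2def
    have hn2v : (n2 : P) = π (Φ (g2, g2)) := by
      show (π (Φ (g1 * g2⁻¹, 1)))⁻¹ * (n : P) = _
      rw [← hgn, ← map_inv, ← map_mul, Φ_inv, Φ_mul_Φ, inv_one, one_mul, _root_.mul_inv_rev, inv_inv,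
        inv_mul_cancel_right]
    by_cases htriv : ∀ a ∈ Q, g2 * a = a * g2
    · have : actHom ⊤ S n2 = 1 := by
        refine MulEquiv.ext fun x => Subtype.ext ?_
        rw [actHom_apply, MulAut.one_apply, cj_apply, hn2v, mul_inv_eq_iff_eq_mul]
        obtain ⟨_, ⟨a, ha, b, hb, rfl | rfl⟩, hxe⟩ := (hS ▸ x.2 : (x : P) ∈ (wr Q).map π)
        · rw [← hxe, ← map_mul π, ← map_mul π, Φ_mul_Φ, Φ_mul_Φ, htriv a ha, htriv b hb]
        · rw [← hxe, ← map_mul π, ← map_mul π, mul_assoc, sig_mul_Φ, ← mul_assoc, ← mul_assoc, Φ_mul_Φ,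
            Φ_mul_Φ, htriv a ha, htriv b hb]
      show actHom ⊤ S n2 ∈ target S
      rw [this]; exact one_mem _
    rcases hQ.dich with hL | ⟨hq, hanti⟩
    · exact absurd (hL g2 m hm hg2m hn2) htriv
    push Not at htriv
    obtain ⟨i, hiQ, hine⟩ := htriv
    have hi : i * i = -1 := by
      rcases hq i hiQ with rfl | rfl | h
      · exact absurd (by rw [mul_one, one_mul]) hine
      · exact absurd (by rw [mul_neg_one, neg_one_mul]) hine
      · exact h
    set j := g2 * i * g2⁻¹ with hjdef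
    have hjQ : j ∈ Q := hn2 i hiQ
    have hj : j * j = -1 := by
      rw [hjdef, show g2 * i * g2⁻¹ * (g2 * i * g2⁻¹) = g2 * (i * i) * g2⁻¹ by group, hi,
        mul_neg_one, neg_mul, mul_inv_cancel]
    have hji : j ≠ i := fun h => hine (by
      rw [hjdef] at h; exact mul_inv_eq_iff_eq_mul.mp h)
    have hgi : g2 * i = j * g2 := by rw [hjdef, inv_mul_cancel_right]
    have hsq : ∀ x : SL₂, g2 * g2 * x = x * (g2 * g2) → g2 * x = x * g2 := fun x h =>
      comm_of_sq hm hg2m h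
    have hji' : j ≠ -i := fun h => hine (hsq i (by
      rw [mul_assoc, hgi, h, neg_mul, mul_neg, ← mul_assoc, hgi, h, neg_mul, neg_mul, neg_neg,
        mul_assoc]))
    have hij : i * j = -(j * i) := hanti i hiQ j hjQ hi hj hji hji'
    set k' := g2 * j * g2⁻¹ with hk'def
    have hk'Q : k' ∈ Q := hn2 j hjQ
    have hk' : k' * k' = -1 := by
      rw [hk'def, show g2 * j * g2⁻¹ * (g2 * j * g2⁻¹) = g2 * (j * j) * g2⁻¹ by group, hj,
        mul_neg_one, neg_mul, mul_inv_cancel]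
    have hgj : g2 * j = k' * g2 := by rw [hk'def, inv_mul_cancel_right]
    have k1 : k' ≠ i := fun h => hine (hsq i (by
      rw [mul_assoc, hgi, ← mul_assoc, hgj, h, mul_assoc]))
    have k2 : k' ≠ -i := fun h => by
      have e : g2 * g2 * i = -(i * (g2 * g2)) := by
        rw [mul_assoc, hgi, ← mul_assoc, hgj, h, neg_mul, neg_mul, mul_assoc]
      refine hine (hsq i (comm_of_sq hm (by rw [← pow_two, pow_right_comm, hg2m, one_pow]) ?_))
      show g2 * g2 * (g2 * g2) * i = i * (g2 * g2 * (g2 * g2))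
      rw [mul_assoc, e, mul_neg, ← mul_assoc (g2 * g2) i, e, neg_mul, neg_neg, mul_assoc]
    have k3 : k' ≠ j := fun h => by
      rw [h] at hgj
      exact hji (mul_left_cancel (hgi.trans hgj.symm)).symm
    have k4 : k' ≠ -j := fun h => k3 (by
      refine mul_right_cancel (b := g2) (hgj.symm.trans (hsq j ?_))
      rw [mul_assoc, hgj, h, ← mul_assoc, mul_neg, hgj, h]; simp only [neg_mul, neg_neg, mul_assoc])
    rcases eq_prod_of_anticomm h2 hi hj hij (hanti i hiQ k' hk'Q hi hk' k1 k2)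
      (hanti j hjQ k' hk'Q hj hk' k3 k4) with hk | hk
    · exact rot_mem_target hπ hker hodd hQ hq hanti hS hiQ hjQ hi hj hij hgi (hk ▸ hgj) n2 hn2v
    · have hQneg : ∀ x ∈ Q, -x ∈ Q := fun x hx => by
        rw [← neg_one_mul]; exact mul_mem hQ.neg hx
      refine rot_mem_target hπ hker hodd hQ hq hanti hS (hQneg i hiQ) (hQneg j hjQ)
        (by rw [neg_mul_neg, hi]) (by rw [neg_mul_neg, hj]) (by rw [neg_mul_neg, neg_mul_neg, hij])
        (by rw [mul_neg, hgi, neg_mul]) ?_ n2 hn2v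
      rw [mul_neg, hgj, hk, neg_mul, neg_neg, neg_mul_neg]
  intro n
  obtain ⟨k, m, hm2, hkm⟩ := Nat.exists_eq_pow_mul_and_not_dvd (orderOf_pos n).ne' 2 (by norm_num)
  have h1 : n ^ m ∈ H := htwo _ k (by
    rw [← Subgroup.coe_pow, ← pow_mul, ← Subgroup.coe_one, mul_comm, ← hkm, pow_orderOf_eq_one])
  have h3 : n ^ 2 ^ k ∈ H := hodd' _ m (Nat.odd_iff.mpr (by omega)) (by
    rw [← Subgroup.coe_pow, ← pow_mul, ← Subgroup.coe_one, ← hkm, pow_orderOf_eq_one])
  have hcop : Nat.Coprime (2 ^ k) m := ((Nat.prime_two.coprime_iff_not_dvd).mpr hm2).pow_left k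
  have hb := Nat.gcd_eq_gcd_ab (2 ^ k) m
  rw [hcop] at hb
  have : n = (n ^ 2 ^ k) ^ Nat.gcdA (2 ^ k) m * (n ^ m) ^ Nat.gcdB (2 ^ k) m := by
    rw [← zpow_natCast n (2 ^ k), ← zpow_natCast n m, ← _root_.zpow_mul, ← _root_.zpow_mul, ← _root_.zpow_add, ← hb]
    simp
  rw [this]
  exact mul_mem (zpow_mem h3 _) (zpow_mem h1 _)

end Cfsg.Agent.Fusion.SpFour
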